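import Cfsg.Agent.H16.J3
import Cfsg.Agent.H16.Targ

/-! The Janko group `J₃` over a concrete field, inside the unitary group. -/

set_option autoImplicit false
set_option maxRecDepth 100000

namespace Cfsg.Agent.H16

open Cfsg Mdl

theorem q4Fin (d : ℕ) (h0 : 0 < d) (h1 : d ≤ 15) : Q4 (el4 2) (Fin.val : Fin d → ℕ) d :=
  ⟨Nat.card_eq_fintype_card.trans card_F4, by decide, fun z => z.2, fun k hk => ⟨⟨k, hk⟩, rfl⟩, Fin.val_injective, h1, h0⟩

theorem J3.le_su : J3.T (q4Fin 9 (by norm_num) (by norm_num)) ≤ suGL 9 F4 2 := clo_le' fun p hp g r => by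
  have h : ∀ p ∈ J3.KS.map Prod.fst, uniB 9 J3.mul18Ap p = true ∧
    isOne (linOps J3.mul18 J3.mul18Ap J3.mul18One (9 + 9)) (powM (linOps J3.mul18 J3.mul18Ap J3.mul18One (9 + 9)) p 19) = true := by
    decide +kernel
  have h1 := (q4Fin 9 (by norm_num) (by norm_num)).det_eq_one (n := 19) rfl (isOne_spec (R_pow r 19) (h p hp).2)
  exact ⟨MonoidHom.mem_ker.mpr (Units.ext ((Matrix.GeneralLinearGroup.val_det_apply g).trans h1)), unitary r (h p hp).1⟩

end Cfsg.Agent.H16
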